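import Cfsg.Agent.H694.CoxA

/-!
# TEAM EB, [U6]: double coset numbers in the Coxeter groups of type `A` (points, lines, hyperplanes, flags)
-/

set_option autoImplicit false

namespace Cfsg.Agent.H686.EB.CountsA

open Cfsg.Agent.H694
open Cfsg.Agent.ChevalleyStructure.CoxeterGeom Cfsg.Agent.Tits.Core Cfsg.Agent.Tits.OppRes
open Cfsg.Agent.Nodes
open Cfsg.Agent.LieRecognition.BNCox (cA)

/-! ### Counting -/

theorem card_of_list {Y Z : Type*} [DecidableEq Z] {P : Y → Prop} (f : Y → Z) (hf : Function.Injective f)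
    (l : List Z) (hl : l.Nodup) (h1 : ∀ y, P y → f y ∈ l) (h2 : ∀ z ∈ l, ∃ y, P y ∧ f y = z) :
    Nat.card {y // P y} = l.length := by
  rw [← List.toFinset_card_of_nodup hl, ← Fintype.card_coe, ← Nat.card_eq_fintype_card]
  refine Nat.card_congr (Equiv.ofBijective (fun y => (⟨f y.1, List.mem_toFinset.2 (h1 y.1 y.2)⟩ :
    {z // z ∈ l.toFinset})) ⟨?_, ?_⟩)
  · intro a b hab
    exact Subtype.ext (hf (congrArg Subtype.val hab))
  · rintro ⟨z, hz⟩
    obtain ⟨y, hy, rfl⟩ := h2 z (List.mem_toFinset.1 hz)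
    exact ⟨⟨y, hy⟩, rfl⟩

/-- increasing pairs -/
abbrev Y2 (n : ℕ) : Type := {y : Fin (n + 1) × Fin (n + 1) // y.1 < y.2}

theorem card_pts {n : ℕ} (R : ℕ → Prop) (l : List ℕ) (hl : l.Nodup) (h : ∀ a, a ∈ l ↔ a < n + 1 ∧ R a)
    {P : Fin (n + 1) → Prop} (hP : ∀ y, P y ↔ R y) : Nat.card {y // P y} = l.length := by
  refine card_of_list (fun y : Fin (n + 1) => (y : ℕ)) Fin.val_injective l hl ?_ ?_
  · intro y hy
    exact (h y).2 ⟨y.2, (hP y).1 hy⟩
  · intro z hz
    obtain ⟨h1, h2⟩ := (h z).1 hz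
    exact ⟨⟨z, h1⟩, (hP _).2 h2, rfl⟩

theorem card_pairs {n : ℕ} (R : ℕ → ℕ → Prop) (l : List (ℕ × ℕ)) (hl : l.Nodup)
    (h : ∀ a b, (a, b) ∈ l ↔ a < b ∧ b < n + 1 ∧ R a b)
    {P : Y2 n → Prop} (hP : ∀ y, P y ↔ R y.1.1 y.1.2) : Nat.card {y // P y} = l.length := by
  refine card_of_list (fun y : Y2 n => ((y.1.1 : ℕ), (y.1.2 : ℕ))) ?_ l hl ?_ ?_
  · intro y y' hy
    rw [Prod.mk.injEq] at hy
    exact Subtype.ext (Prod.ext (Fin.ext hy.1) (Fin.ext hy.2))
  · intro y hy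
    exact (h _ _).2 ⟨y.2, y.1.2.2, (hP y).1 hy⟩
  · rintro ⟨a, b⟩ hz
    obtain ⟨h1, h2, h3⟩ := (h a b).1 hz
    exact ⟨⟨(⟨a, by omega⟩, ⟨b, h2⟩), h1⟩, (hP _).2 h3, rfl⟩

/-! ### The four orbits -/

theorem ev_eq {n : ℕ} (x : Fin (n + 1)) (j : Fin n) :
    ev n x j = (if j.castSucc = x then 1 else 0) - (if j.succ = x then 1 else 0) := by
  unfold ev
  simp only [Fin.ext_iff, Fin.val_castSucc, Fin.val_succ]
  split_ifs <;> omega

theorem const_zero {n : ℕ} {δ : Fin (n + 1) → ℤ} (h1 : ∀ j : Fin n, δ j.castSucc = δ j.succ)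
    (h3 : ∑ k, δ k = 0) (k : Fin (n + 1)) : δ k = 0 := by
  have h2 : ∀ k : Fin (n + 1), δ k = δ 0 := by
    intro k
    induction k using Fin.induction with
    | zero => rfl
    | succ i ih => rw [← h1, ih]
  rw [h2, ← mul_eq_zero_iff_left (a := ((n + 1 : ℕ) : ℤ)) (by omega)]
  rw [Finset.sum_congr rfl fun k _ => h2 k, Finset.sum_const, Finset.card_univ,
    Fintype.card_fin, nsmul_eq_mul] at h3
  exact h3

theorem ev_injective (n : ℕ) : Function.Injective (ev n) := by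
  intro a b h
  have h1 : ∀ k, ((if k = a then (1 : ℤ) else 0) - (if k = b then 1 else 0)) = 0 := by
    refine const_zero ?_ ?_
    · intro j
      have h2 := congrFun h j
      rw [ev_eq, ev_eq] at h2
      linarith
    · simp only [Finset.sum_sub_distrib, Finset.sum_ite_eq', Finset.mem_univ, if_true]
      norm_num
  have h2 := h1 a
  simp only [if_true] at h2
  by_contra hc
  rw [if_neg hc] at h2
  norm_num at h2

/-- the functional of a pair -/
def ph2 (n : ℕ) (y : Y2 n) (j : Fin n) : ℤ := ev n y.1.1 j + ev n y.1.2 j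

theorem ph2_injective (n : ℕ) : Function.Injective (ph2 n) := by
  rintro ⟨⟨a, b⟩, hab⟩ ⟨⟨c, d⟩, hcd⟩ h
  have h1 : ∀ k, ((if k = a then (1 : ℤ) else 0) + (if k = b then 1 else 0)) -
      ((if k = c then 1 else 0) + (if k = d then 1 else 0)) = 0 := by
    refine const_zero ?_ ?_
    · intro j
      have h2 := congrFun h j
      simp only [ph2, ev_eq] at h2
      linarith
    · simp only [Finset.sum_sub_distrib, Finset.sum_add_distrib, Finset.sum_ite_eq', Finset.mem_univ, if_true]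
      norm_num
  have h5 := h1 a
  have h6 := h1 b
  simp only [if_true] at h5 h6
  simp only at hab hcd
  have hab' : a ≠ b := hab.ne
  rw [if_neg hab'] at h5
  rw [if_neg hab'.symm] at h6
  have h7 : a = c ∨ a = d := by
    by_contra hc
    push Not at hc
    rw [if_neg hc.1, if_neg hc.2] at h5
    norm_num at h5
  have h8 : b = c ∨ b = d := by
    by_contra hc
    push Not at hc
    rw [if_neg hc.1, if_neg hc.2] at h6
    norm_num at h6
  apply Subtype.ext
  rw [Prod.mk.injEq]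
  rcases h7 with rfl | rfl
  · rcases h8 with rfl | rfl
    · exact absurd rfl hab'
    · exact ⟨rfl, rfl⟩
  · rcases h8 with rfl | rfl
    · exact absurd (hab.trans hcd) (lt_irrefl _)
    · exact absurd rfl hab'

/-- sort a pair -/
def srt {n : ℕ} (a b : Fin (n + 1)) (h : a ≠ b) : Y2 n :=
  if h' : a < b then ⟨(a, b), h'⟩ else ⟨(b, a), lt_of_le_of_ne (not_lt.1 h') h.symm⟩

theorem ph2_srt {n : ℕ} (a b : Fin (n + 1)) (h : a ≠ b) (j : Fin n) :
    ph2 n (srt a b h) j = ev n a j + ev n b j := by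
  by_cases h' : a < b
  · rw [srt, dif_pos h']
    rfl
  · rw [srt, dif_neg h']
    exact add_comm _ _

theorem sum_srt {n : ℕ} (a b : Fin (n + 1)) (h : a ≠ b) :
    ((srt a b h).1.1 : ℕ) + ((srt a b h).1.2 : ℕ) = a + b := by
  by_cases h' : a < b
  · rw [srt, dif_pos h']
  · rw [srt, dif_neg h']
    exact add_comm _ _

/-- a pair -/
def mk2 {n : ℕ} (a b : ℕ) (hab : a < b) (hb : b < n + 1) : Y2 n := ⟨(⟨a, by omega⟩, ⟨b, hb⟩), hab⟩

theorem ph2_mk2 {n : ℕ} (a b : ℕ) (hab : a < b) (hb : b < n + 1) (j : Fin n) :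
    ph2 n (mk2 a b hab hb) j = (if a = j then 1 else if a = (j : ℕ) + 1 then -1 else 0) +
      (if b = j then 1 else if b = (j : ℕ) + 1 then -1 else 0) := rfl

theorem eq_mk2 {n : ℕ} {a b : ℕ} {hab : a < b} {hb : b < n + 1} {y : Y2 n} (h1 : (y.1.1 : ℕ) = a)
    (h2 : (y.1.2 : ℕ) = b) : y = mk2 a b hab hb :=
  Subtype.ext (Prod.ext (Fin.ext h1) (Fin.ext h2))

/-- the simple reflections on pairs -/
def s2 (n : ℕ) (i : Fin n) (y : Y2 n) : Y2 n :=
  srt (Equiv.swap i.castSucc i.succ y.1.1) (Equiv.swap i.castSucc i.succ y.1.2) fun h =>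
    y.2.ne ((Equiv.swap i.castSucc i.succ).injective h)

theorem ph2_s2 {n : ℕ} (i : Fin n) (y : Y2 n) (j : Fin n) :
    ph2 n (s2 n i y) j = ph2 n y j - RootsA.AA n i j * ph2 n y i := by
  unfold s2
  rw [ph2_srt, ev_swap, ev_swap]
  unfold ph2
  ring

/-- the characteristic functional of a node -/
def dl (n k : ℕ) (j : Fin n) : ℤ := if (j : ℕ) = k then 1 else 0

theorem dl_nonneg (n k : ℕ) (j : Fin n) : 0 ≤ dl n k j := by
  unfold dl
  split_ifs <;> norm_num

theorem dl_set (n k : ℕ) : {i : Fin n | dl n k i = 0} = {i : Fin n | (i : ℕ) ≠ k} := by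
  ext i
  simp only [Set.mem_ofPred_eq, dl]
  split_ifs with h <;> simp [h]

variable {W : Type*} [Group W] [Finite W]

/-- points -/
theorem pts {n : ℕ} (hn : 3 ≤ n) (cs : CoxeterSystem (cA n) W) (L : Set (Fin n)) :
    Nat.card (DoubleCoset.Quotient (WJ cs L : Set W) (WJ cs {i | (i : ℕ) ≠ 0} : Set W)) =
      Nat.card {y : Fin (n + 1) // ∀ i ∈ L, 0 ≤ ev n y i} := by
  have h := (count cs (RootsA.isCartan n) (dl_nonneg n 0) (ev n) (ev_injective n) 0 (by
    funext j
    simp only [ev, dl, Fin.val_zero]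
    split_ifs <;> omega) (fun i y => Equiv.swap i.castSucc i.succ y) (fun i y j => ev_swap i y j)
    (fun y => (y : ℕ)) (by
      intro y hy
      have h1 := y.2
      have h2 : (y : ℕ) ≠ 0 := fun h => hy (Fin.ext h)
      refine ⟨⟨y - 1, by omega⟩, ?_⟩
      simp only [RootsA.swap_val]
      split_ifs <;> omega)).2 L
  rwa [dl_set] at h

/-- hyperplanes -/
theorem hyp {n : ℕ} (hn : 3 ≤ n) (cs : CoxeterSystem (cA n) W) (L : Set (Fin n)) :
    Nat.card (DoubleCoset.Quotient (WJ cs L : Set W) (WJ cs {i | (i : ℕ) ≠ n - 1} : Set W)) =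
      Nat.card {y : Fin (n + 1) // ∀ i ∈ L, 0 ≤ -ev n y i} := by
  have h := (count cs (RootsA.isCartan n) (dl_nonneg n (n - 1)) (fun y j => -ev n y j) (by
      intro a b hab
      apply ev_injective n
      funext j
      exact neg_injective (congrFun hab j)) (Fin.last n) (by
    funext j
    have := j.2
    simp only [ev, dl, Fin.val_last]
    split_ifs <;> omega) (fun i y => Equiv.swap i.castSucc i.succ y) (fun i y j => by
      rw [ev_swap]
      ring)
    (fun y => n - (y : ℕ)) (by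
      intro y hy
      have h1 := y.2
      have h2 : (y : ℕ) ≠ n := fun h => hy (Fin.ext h)
      refine ⟨⟨y, by omega⟩, ?_⟩
      simp only [RootsA.swap_val]
      split_ifs <;> omega)).2 L
  rwa [dl_set] at h

/-- lines -/
theorem lns {n : ℕ} (hn : 3 ≤ n) (cs : CoxeterSystem (cA n) W) (L : Set (Fin n)) :
    Nat.card (DoubleCoset.Quotient (WJ cs L : Set W) (WJ cs {i | (i : ℕ) ≠ 1} : Set W)) =
      Nat.card {y : Y2 n // ∀ i ∈ L, 0 ≤ ph2 n y i} := by
  have h := (count cs (RootsA.isCartan n) (dl_nonneg n 1) (ph2 n) (ph2_injective n)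
    (mk2 0 1 (by omega) (by omega)) (by
    funext j
    rw [ph2_mk2]
    unfold dl
    split_ifs <;> first | contradiction | omega) (s2 n) (fun i y j => ph2_s2 i y j)
    (fun y => (y.1.1 : ℕ) + (y.1.2 : ℕ)) (by
      rintro ⟨⟨a, b⟩, hab⟩ hy
      have ha := a.2
      have hb := b.2
      have hab' : (a : ℕ) < b := hab
      by_cases h0 : (a : ℕ) = 0
      · have hb1 : (b : ℕ) ≠ 1 := by
          intro hb1
          exact hy (eq_mk2 h0 hb1)
        refine ⟨⟨b - 1, by omega⟩, ?_⟩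
        unfold s2
        rw [sum_srt]
        simp only [RootsA.swap_val]
        split_ifs <;> omega
      · refine ⟨⟨a - 1, by omega⟩, ?_⟩
        unfold s2
        rw [sum_srt]
        simp only [RootsA.swap_val]
        split_ifs <;> omega)).2 L
  rwa [dl_set] at h

/-- subspaces of codimension two -/
theorem cln {n : ℕ} (hn : 3 ≤ n) (cs : CoxeterSystem (cA n) W) (L : Set (Fin n)) :
    Nat.card (DoubleCoset.Quotient (WJ cs L : Set W) (WJ cs {i | (i : ℕ) ≠ n - 2} : Set W)) =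
      Nat.card {y : Y2 n // ∀ i ∈ L, 0 ≤ -ph2 n y i} := by
  have h := (count cs (RootsA.isCartan n) (dl_nonneg n (n - 2)) (fun y j => -ph2 n y j) (by
      intro a b hab
      apply ph2_injective n
      funext j
      exact neg_injective (congrFun hab j))
    (mk2 (n - 1) n (by omega) (by omega)) (by
    funext j
    have := j.2
    rw [ph2_mk2]
    unfold dl
    split_ifs <;> first | contradiction | omega) (s2 n) (fun i y j => by
      rw [ph2_s2]
      ring)
    (fun y => 2 * n - ((y.1.1 : ℕ) + (y.1.2 : ℕ))) (by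
      rintro ⟨⟨a, b⟩, hab⟩ hy
      have ha := a.2
      have hb := b.2
      have hab' : (a : ℕ) < b := hab
      by_cases h0 : (b : ℕ) = n
      · have hb1 : (a : ℕ) ≠ n - 1 := by
          intro hb1
          exact hy (eq_mk2 hb1 h0)
        refine ⟨⟨a, by omega⟩, ?_⟩
        unfold s2
        rw [sum_srt]
        simp only [RootsA.swap_val]
        split_ifs <;> omega
      · refine ⟨⟨b, by omega⟩, ?_⟩
        unfold s2
        rw [sum_srt]
        simp only [RootsA.swap_val]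
        split_ifs <;> omega)).2 L
  rwa [dl_set] at h

/-! ### Dominance -/

theorem dom_pts {n : ℕ} (Lp : ℕ → Prop) (y : Fin (n + 1)) :
    (∀ i ∈ {i : Fin n | Lp i}, 0 ≤ ev n y i) ↔ ((y : ℕ) = 0 ∨ ¬ Lp ((y : ℕ) - 1)) := by
  have hy := y.2
  constructor
  · intro h
    by_contra hc
    push Not at hc
    have h1 := h ⟨y - 1, by omega⟩ hc.2
    simp only [ev] at h1
    split_ifs at h1 <;> omega
  · intro h i hi
    have hi' : Lp (i : ℕ) := hi
    have := i.2
    unfold ev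
    split_ifs with h1 h2
    · norm_num
    · exfalso
      rcases h with h | h
      · omega
      · apply h
        rw [h2, Nat.add_sub_cancel]
        exact hi'
    · exact le_rfl

theorem dom_hyp {n : ℕ} (Lp : ℕ → Prop) (y : Fin (n + 1)) :
    (∀ i ∈ {i : Fin n | Lp i}, 0 ≤ -ev n y i) ↔ ((y : ℕ) = n ∨ ¬ Lp (y : ℕ)) := by
  have hy := y.2
  constructor
  · intro h
    by_contra hc
    push Not at hc
    have h1 := h ⟨y, by omega⟩ hc.2
    simp only [ev] at h1
    split_ifs at h1 <;> omega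
  · intro h i hi
    have hi' : Lp (i : ℕ) := hi
    have := i.2
    unfold ev
    split_ifs with h1 h2
    · exfalso
      rcases h with h | h
      · omega
      · apply h
        rw [h1]
        exact hi'
    · norm_num
    · norm_num

theorem dom_lns {n : ℕ} (Lp : ℕ → Prop) (y : Y2 n) :
    (∀ i ∈ {i : Fin n | Lp i}, 0 ≤ ph2 n y i) ↔
      (((y.1.1 : ℕ) = 0 ∨ ¬ Lp ((y.1.1 : ℕ) - 1)) ∧ ((y.1.2 : ℕ) = y.1.1 + 1 ∨ ¬ Lp ((y.1.2 : ℕ) - 1))) := by
  obtain ⟨⟨a, b⟩, hab⟩ := y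
  have ha := a.2
  have hb := b.2
  have hab' : (a : ℕ) < b := hab
  simp only
  constructor
  · intro h
    constructor
    · by_contra hc
      push Not at hc
      have h1 := h ⟨a - 1, by omega⟩ hc.2
      simp only [ph2, ev] at h1
      split_ifs at h1 <;> omega
    · by_contra hc
      push Not at hc
      have h1 := h ⟨b - 1, by omega⟩ hc.2
      simp only [ph2, ev] at h1
      split_ifs at h1 <;> omega
  · rintro ⟨h1, h2⟩ i hi
    have hi' : Lp (i : ℕ) := hi
    have hin := i.2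
    have h3 : (a : ℕ) ≠ i + 1 := by
      intro h3
      rcases h1 with h1 | h1
      · omega
      · apply h1
        rw [h3, Nat.add_sub_cancel]
        exact hi'
    have h4 : (b : ℕ) = i + 1 → (a : ℕ) = i := by
      intro h4
      rcases h2 with h2 | h2
      · omega
      · exfalso
        apply h2
        rw [h4, Nat.add_sub_cancel]
        exact hi'
    simp only [ph2, ev]
    split_ifs <;> omega

theorem dom_cln {n : ℕ} (Lp : ℕ → Prop) (y : Y2 n) :
    (∀ i ∈ {i : Fin n | Lp i}, 0 ≤ -ph2 n y i) ↔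
      (((y.1.2 : ℕ) = n ∨ ¬ Lp (y.1.2 : ℕ)) ∧ ((y.1.2 : ℕ) = y.1.1 + 1 ∨ ¬ Lp (y.1.1 : ℕ))) := by
  obtain ⟨⟨a, b⟩, hab⟩ := y
  have ha := a.2
  have hb := b.2
  have hab' : (a : ℕ) < b := hab
  simp only
  constructor
  · intro h
    constructor
    · by_contra hc
      push Not at hc
      have h1 := h ⟨b, by omega⟩ hc.2
      simp only [ph2, ev] at h1
      split_ifs at h1 <;> omega
    · by_contra hc
      push Not at hc
      have h1 := h ⟨a, by omega⟩ hc.2
      simp only [ph2, ev] at h1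
      split_ifs at h1 <;> omega
  · rintro ⟨h1, h2⟩ i hi
    have hi' : Lp (i : ℕ) := hi
    have hin := i.2
    have h3 : (b : ℕ) ≠ i := by
      intro h3
      rcases h1 with h1 | h1
      · omega
      · apply h1
        rw [h3]
        exact hi'
    have h4 : (a : ℕ) = i → (b : ℕ) = i + 1 := by
      intro h4
      rcases h2 with h2 | h2
      · omega
      · exfalso
        apply h2
        rw [h4]
        exact hi'
    simp only [ph2, ev]
    split_ifs <;> omega

/-- **[U6]** -/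
theorem counts_A {n : ℕ} (hn : 3 ≤ n) (cs : CoxeterSystem (cA n) W) :
    (Nat.card (DoubleCoset.Quotient (WJ cs {i | (i : ℕ) ≠ 0} : Set W) (WJ cs {i | (i : ℕ) ≠ 0} : Set W)) = 2 ∧
     Nat.card (DoubleCoset.Quotient (WJ cs {i | (i : ℕ) ≠ 0} : Set W) (WJ cs {i | (i : ℕ) ≠ n - 1} : Set W)) = 2 ∧
     Nat.card (DoubleCoset.Quotient (WJ cs {i | (i : ℕ) ≠ n - 1} : Set W) (WJ cs {i | (i : ℕ) ≠ n - 1} : Set W)) = 2) ∧
    (Nat.card (DoubleCoset.Quotient (WJ cs {i | (i : ℕ) ≠ 1} : Set W) (WJ cs {i | (i : ℕ) ≠ 1} : Set W)) = 3 ∧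
     Nat.card (DoubleCoset.Quotient (WJ cs {i | (i : ℕ) ≠ 1} : Set W) (WJ cs {i | (i : ℕ) ≠ n - 2} : Set W)) = 3 ∧
     Nat.card (DoubleCoset.Quotient (WJ cs {i | (i : ℕ) ≠ n - 2} : Set W) (WJ cs {i | (i : ℕ) ≠ n - 2} : Set W)) = 3) ∧
    Nat.card (DoubleCoset.Quotient (WJ cs {i | (i : ℕ) ≠ 0} : Set W) (WJ cs {i | (i : ℕ) ≠ 1} : Set W)) = 2 ∧
    Nat.card (DoubleCoset.Quotient (WJ cs {i | ¬ ((i : ℕ) = 0 ∨ (i : ℕ) = n - 1)} : Set W) (WJ cs {i | (i : ℕ) ≠ 0} : Set W)) = 3 ∧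
    Nat.card (DoubleCoset.Quotient (WJ cs {i | ¬ ((i : ℕ) = 0 ∨ (i : ℕ) = n - 1)} : Set W) (WJ cs {i | (i : ℕ) ≠ 1} : Set W)) = 4 := by
  refine ⟨⟨?_, ?_, ?_⟩, ⟨?_, ?_, ?_⟩, ?_, ?_, ?_⟩
  · rw [pts hn]
    refine card_pts (fun a => a = 0 ∨ ¬ a - 1 ≠ 0) [0, 1] (by simp) ?_ (dom_pts fun i => i ≠ 0)
    intro a
    simp only [List.mem_cons, List.not_mem_nil, or_false]
    omega
  · rw [hyp hn]
    refine card_pts (fun a => a = n ∨ ¬ a ≠ 0) [0, n] (by simp; omega) ?_ (dom_hyp fun i => i ≠ 0)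
    intro a
    simp only [List.mem_cons, List.not_mem_nil, or_false]
    omega
  · rw [hyp hn]
    refine card_pts (fun a => a = n ∨ ¬ a ≠ n - 1) [n - 1, n] (by simp; omega) ?_ (dom_hyp fun i => i ≠ n - 1)
    intro a
    simp only [List.mem_cons, List.not_mem_nil, or_false]
    omega
  · rw [lns hn]
    refine card_pairs (fun a b => (a = 0 ∨ ¬ a - 1 ≠ 1) ∧ (b = a + 1 ∨ ¬ b - 1 ≠ 1)) [(0, 1), (0, 2), (2, 3)] (by simp) ?_ (dom_lns fun i => i ≠ 1)
    intro a b
    simp only [List.mem_cons, List.not_mem_nil, or_false, Prod.mk.injEq]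
    omega
  · rw [cln hn]
    refine card_pairs (fun a b => (b = n ∨ ¬ b ≠ 1) ∧ (b = a + 1 ∨ ¬ a ≠ 1)) [(0, 1), (1, n), (n - 1, n)] (by simp; omega) ?_ (dom_cln fun i => i ≠ 1)
    intro a b
    simp only [List.mem_cons, List.not_mem_nil, or_false, Prod.mk.injEq]
    omega
  · rw [cln hn]
    refine card_pairs (fun a b => (b = n ∨ ¬ b ≠ n - 2) ∧ (b = a + 1 ∨ ¬ a ≠ n - 2)) [(n - 3, n - 2), (n - 2, n), (n - 1, n)] (by simp; omega) ?_ (dom_cln fun i => i ≠ n - 2)
    intro a b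
    simp only [List.mem_cons, List.not_mem_nil, or_false, Prod.mk.injEq]
    omega
  · rw [card_double_comm, pts hn]
    refine card_pts (fun a => a = 0 ∨ ¬ a - 1 ≠ 1) [0, 2] (by simp) ?_ (dom_pts fun i => i ≠ 1)
    intro a
    simp only [List.mem_cons, List.not_mem_nil, or_false]
    omega
  · rw [pts hn]
    refine card_pts (fun a => a = 0 ∨ ¬ ¬ (a - 1 = 0 ∨ a - 1 = n - 1)) [0, 1, n] (by simp; omega) ?_ (dom_pts fun i => ¬ (i = 0 ∨ i = n - 1))
    intro a
    simp only [List.mem_cons, List.not_mem_nil, or_false]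
    omega
  · rw [lns hn]
    refine card_pairs (fun a b => (a = 0 ∨ ¬ ¬ (a - 1 = 0 ∨ a - 1 = n - 1)) ∧ (b = a + 1 ∨ ¬ ¬ (b - 1 = 0 ∨ b - 1 = n - 1)))
      [(0, 1), (0, n), (1, 2), (1, n)] (by simp; omega) ?_ (dom_lns fun i => ¬ (i = 0 ∨ i = n - 1))
    intro a b
    simp only [List.mem_cons, List.not_mem_nil, or_false, Prod.mk.injEq]
    omega

end Cfsg.Agent.H686.EB.CountsA
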